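import Mathlib

/-!
# Quadratic functions over the field with two elements: Gauss sums

`q : V → ZMod 2` polarizing to a non-degenerate alternating form `f`.
-/

set_option autoImplicit false

set_option linter.unusedSectionVars false

namespace Cfsg.Agent.Lib.F2Quad.Basic

/-- The additive character of `ZMod 2`. -/
def chi (a : ZMod 2) : ℤ := if a = 0 then 1 else -1

@[simp] theorem chi_zero : chi 0 = 1 := rfl
@[simp] theorem chi_one : chi 1 = -1 := rfl

theorem chi_add (a b : ZMod 2) : chi (a + b) = chi a * chi b := by
  revert a b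
  decide

theorem zmod2_cases (a : ZMod 2) : a = 0 ∨ a = 1 := by
  revert a
  decide

theorem zmod2_add_self (a : ZMod 2) : a + a = 0 := by
  revert a
  decide

theorem zmod2_sq (a : ZMod 2) : a * a = a := by
  revert a
  decide

theorem chi_mul_self (a : ZMod 2) : chi a * chi a = 1 := by
  revert a
  decide

theorem chi_eq_one_iff (a : ZMod 2) : chi a = 1 ↔ a = 0 := by
  revert a
  decide

variable {V : Type*} [Fintype V] [AddCommGroup V] [Module (ZMod 2) V]

/-- The Gauss sum of a function. -/
def gauss (q : V → ZMod 2) : ℤ := ∑ v, chi (q v)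

/-- Polarization structure. -/
structure Polarizes (q : V → ZMod 2) (f : LinearMap.BilinForm (ZMod 2) V) : Prop where
  add : ∀ u v, q (u + v) = q u + q v + f u v

section

variable {q : V → ZMod 2} {f : LinearMap.BilinForm (ZMod 2) V}

theorem Polarizes.map_zero (h : Polarizes q f) : q 0 = 0 := by
  have h1 := h.add 0 0
  have h0 : f 0 0 = 0 := by simp
  rw [add_zero, h0, add_zero, zmod2_add_self] at h1
  exact h1

theorem sum_chi_linear (L : V →ₗ[ZMod 2] ZMod 2) (hL : L ≠ 0) : ∑ v, chi (L v) = 0 := by
  obtain ⟨a, ha⟩ : ∃ a, L a ≠ 0 := by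
    by_contra hcon
    push Not at hcon
    exact hL (LinearMap.ext hcon)
  have ha1 : L a = 1 := (zmod2_cases _).resolve_left ha
  have h1 : ∑ v, chi (L v) = ∑ v, chi (L (v + a)) :=
    (Equiv.sum_comp (Equiv.addRight a) (fun v => chi (L v))).symm
  have h2 : ∑ v, chi (L (v + a)) = - ∑ v, chi (L v) := by
    rw [← Finset.sum_neg_distrib]
    refine Finset.sum_congr rfl fun v _ => ?_
    rw [map_add, ha1, chi_add, chi_one]
    ring
  omega

/-- `∑ χ(f u t)` over `u`. -/
theorem sum_chi_bilin (hnd : f.Nondegenerate) (t : V) (ht : t ≠ 0) : ∑ u, chi (f u t) = 0 := by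
  apply sum_chi_linear (f.flip t)
  intro h
  apply ht
  exact hnd.2 t (fun u => by
    have := congrArg (fun L => L u) h
    simpa using this)

/-- `G(q + f(·, w)) = χ(q w) G(q)`. -/
theorem gauss_translate (h : Polarizes q f) (w : V) :
    gauss (fun v => q v + f v w) = chi (q w) * gauss q := by
  unfold gauss
  rw [Finset.mul_sum, ← Equiv.sum_comp (Equiv.addRight w) (fun v => chi (q w) * chi (q v))]
  refine Finset.sum_congr rfl fun v _ => ?_
  simp only [Equiv.coe_addRight]
  rw [h.add, chi_add, chi_add, chi_add]
  have := chi_mul_self (q w)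
  linear_combination (- chi (q v) * chi (f v w)) * this

/-- `G(q)² = |V|`. -/
theorem gauss_sq (h : Polarizes q f) (hnd : f.Nondegenerate) :
    gauss q * gauss q = Fintype.card V := by
  classical
  have h1 : gauss q * gauss q = ∑ t, chi (q t) * ∑ u, chi (f u t) := by
    unfold gauss
    rw [Finset.sum_mul_sum]
    calc ∑ u, ∑ v, chi (q u) * chi (q v) = ∑ u, ∑ t, chi (q u) * chi (q (u + t)) := by
          refine Finset.sum_congr rfl fun u _ => ?_
          exact (Equiv.sum_comp (Equiv.addLeft u) (fun v => chi (q u) * chi (q v))).symm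
      _ = ∑ t, ∑ u, chi (q u) * chi (q (u + t)) := Finset.sum_comm
      _ = _ := by
          refine Finset.sum_congr rfl fun t _ => ?_
          rw [Finset.mul_sum]
          refine Finset.sum_congr rfl fun u _ => ?_
          rw [h.add, chi_add, chi_add]
          have := chi_mul_self (q u)
          linear_combination (chi (q t) * chi (f u t)) * this
  rw [h1, Finset.sum_eq_single (0 : V)]
  · rw [h.map_zero, chi_zero, one_mul]
    simp [chi]
  · intro t _ ht
    rw [sum_chi_bilin hnd t ht, mul_zero]
  · intro h'
    exact absurd (Finset.mem_univ _) h'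

theorem gauss_ne_zero (h : Polarizes q f) (hnd : f.Nondegenerate) : gauss q ≠ 0 := by
  intro h0
  have h1 := gauss_sq h hnd
  rw [h0, zero_mul] at h1
  have : 0 < Fintype.card V := Fintype.card_pos
  omega

/-- Gauss sums are invariant under isometries. -/
theorem gauss_comp {W : Type*} [Fintype W] (e : V ≃ W) (q' : W → ZMod 2) :
    gauss (fun v => q' (e v)) = gauss q' := by
  unfold gauss
  exact Equiv.sum_comp e (fun w => chi (q' w))

/-- Zero counts through Gauss sums: `#{q = 0}`. -/
theorem card_zero_add_card_one (q : V → ZMod 2) [DecidableEq (ZMod 2)] :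
    ((Finset.univ.filter (fun v => q v = 0)).card : ℤ) - (Finset.univ.filter (fun v => q v ≠ 0)).card = gauss q := by
  unfold gauss
  rw [← Finset.sum_filter_add_sum_filter_not Finset.univ (fun v => q v = 0)]
  have h1 : ∑ v ∈ Finset.univ.filter (fun v => q v = 0), chi (q v) = (Finset.univ.filter (fun v => q v = 0)).card := by
    rw [Finset.sum_congr rfl (fun v hv => by rw [(Finset.mem_filter.mp hv).2, chi_zero])]
    simp
  have h2 : ∑ v ∈ Finset.univ.filter (fun v => ¬ q v = 0), chi (q v) = - ((Finset.univ.filter (fun v => ¬ q v = 0)).card : ℤ) := by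
    rw [Finset.sum_congr rfl (fun v hv => by
      rw [(zmod2_cases _).resolve_left (Finset.mem_filter.mp hv).2, chi_one])]
    simp
  rw [h1, h2]
  ring

/-- The transvection of `w`. -/
noncomputable def transv (f : LinearMap.BilinForm (ZMod 2) V) (hf : ∀ v, f v v = 0) (w : V) : V ≃ₗ[ZMod 2] V :=
  LinearEquiv.ofInvolutive
    { toFun := fun v => v + f v w • w
      map_add' := fun x y => by
        simp only [map_add, LinearMap.add_apply, add_smul]
        abel
      map_smul' := fun c x => by
        simp only [map_add, map_smul, LinearMap.smul_apply, smul_eq_mul, RingHom.id_apply, smul_add, mul_smul] }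
    (fun v => by
      have h2 : ∀ x : V, x + x = 0 := fun x => by
        have : (2 : ZMod 2) = 0 := rfl
        rw [← two_smul (ZMod 2) x, this, zero_smul]
      show (v + f v w • w) + f (v + f v w • w) w • w = v
      rw [map_add, LinearMap.add_apply, map_smul, LinearMap.smul_apply, hf w, smul_eq_mul, mul_zero, add_zero,
        add_assoc, h2, add_zero])

theorem transv_apply (hf : ∀ v, f v v = 0) (w v : V) : transv f hf w v = v + f v w • w := rfl

/-- If `q w = 0`, the transvection carries `q` to `q + f(·, w)`. -/
theorem q_transv (h : Polarizes q f) (hf : ∀ v, f v v = 0) (w : V) (hw : q w = 0) (v : V) :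
    q (transv f hf w v) = q v + f v w := by
  rw [transv_apply, h.add]
  rcases zmod2_cases (f v w) with h0 | h1
  · rw [h0, zero_smul, h.map_zero, map_zero]
    simp
  · rw [h1, one_smul, hw, h1]
    simp

/-- `q + f(·, w)` is isometric to `q` iff `q w = 0`. -/
theorem translate_isometric_iff (h : Polarizes q f) (hnd : f.Nondegenerate) (hf : ∀ v, f v v = 0) (w : V) :
    (∃ g : V ≃ₗ[ZMod 2] V, ∀ v, q v + f v w = q (g v)) ↔ q w = 0 := by
  constructor
  · rintro ⟨g, hg⟩
    have h1 := gauss_translate h w
    have h2 : gauss (fun v => q v + f v w) = gauss q := by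
      have h3 : (fun v => q v + f v w) = fun v => q (g.toEquiv v) := funext hg
      rw [h3]
      exact gauss_comp g.toEquiv q
    rw [h2] at h1
    have h0 := gauss_ne_zero h hnd
    have h4 : chi (q w) = 1 := by
      have : (chi (q w) - 1) * gauss q = 0 := by linarith
      rcases mul_eq_zero.mp this with h5 | h5
      · omega
      · exact absurd h5 h0
    exact (chi_eq_one_iff _).mp h4
  · intro hw
    exact ⟨transv f hf w, fun v => (q_transv h hf w hw v).symm⟩

end

end Cfsg.Agent.Lib.F2Quad.Basic
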