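import Cfsg.Agent.Lib.F2Quad.Basic
import Cfsg.Agent.Lib.QuadFn.PlusForm

/-!
# The plus-type and minus-type quadratic forms over `ZMod 2`: Gauss sums

`gauss (quadFormPlus m) = 2^m`, `gauss (quadFormMinus k 1 1) = - 2^(k+1)`.
-/

set_option autoImplicit false
set_option linter.unusedSectionVars false

namespace Cfsg.Agent.Lib.F2Quad.Plus

open Cfsg.Agent.Lib.F2Quad.Basic Cfsg.Agent.Lib.QuadFn.PlusForm Cfsg.Agent.Lib.QuadFn.MaxSingular

abbrev Vm (m : ℕ) := Fin m ⊕ Fin m → ZMod 2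

/-- The polar form over `ZMod 2`. -/
noncomputable abbrev fm (m : ℕ) : LinearMap.BilinForm (ZMod 2) (Vm m) := polarPlus (ZMod 2) m

theorem fm_self (m : ℕ) (v : Vm m) : fm m v v = 0 := by
  simp only [fm, polarPlus_apply]
  apply Finset.sum_eq_zero
  intro i _
  rw [mul_comm (v (.inl i))]
  exact zmod2_add_self _ |>.symm ▸ rfl

theorem fm_nd (m : ℕ) : (fm m).Nondegenerate := (qspace (ZMod 2) m).nd

theorem polar_eq (m : ℕ) (u v : Vm m) :
    Cfsg.quadFormPlus m (ZMod 2) (u + v) - Cfsg.quadFormPlus m (ZMod 2) u - Cfsg.quadFormPlus m (ZMod 2) v = fm m u v :=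
  ((qspace (ZMod 2) m).polar_eq u v).symm

theorem polarizes_of {m : ℕ} {q : Vm m → ZMod 2}
    (hq : ∀ u v : Vm m, q (u + v) = q u + q v + (Cfsg.quadFormPlus m (ZMod 2) (u + v) - Cfsg.quadFormPlus m (ZMod 2) u - Cfsg.quadFormPlus m (ZMod 2) v)) :
    Polarizes q (fm m) := ⟨fun u v => by rw [hq, polar_eq]⟩

theorem polarizes_plus (m : ℕ) : Polarizes (Cfsg.quadFormPlus m (ZMod 2)) (fm m) :=
  ⟨(qspace (ZMod 2) m).add⟩

/-- The linear form `y ↦ x · y`. -/
noncomputable def dotL {m : ℕ} (x : Fin m → ZMod 2) : (Fin m → ZMod 2) →ₗ[ZMod 2] ZMod 2 :=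
  ∑ i, x i • LinearMap.proj i

theorem dotL_apply {m : ℕ} (x y : Fin m → ZMod 2) : dotL x y = ∑ i, x i * y i := by
  simp [dotL, LinearMap.sum_apply]

theorem dotL_ne_zero {m : ℕ} (x : Fin m → ZMod 2) (hx : x ≠ 0) : dotL x ≠ 0 := by
  intro h
  apply hx
  ext i
  have := congrArg (fun L => L (Pi.single i 1)) h
  simpa [dotL_apply, Pi.single_apply, Finset.sum_ite_eq'] using this

theorem gauss_plus (m : ℕ) : gauss (Cfsg.quadFormPlus m (ZMod 2)) = 2 ^ m := by
  classical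
  unfold gauss
  rw [← Equiv.sum_comp (Equiv.sumArrowEquivProdArrow (Fin m) (Fin m) (ZMod 2)).symm, Fintype.sum_prod_type]
  have h1 : ∀ x y : Fin m → ZMod 2, Cfsg.quadFormPlus m (ZMod 2) ((Equiv.sumArrowEquivProdArrow (Fin m) (Fin m) (ZMod 2)).symm (x, y)) = dotL x y := by
    intro x y
    rw [dotL_apply]
    simp [Cfsg.quadFormPlus, Equiv.sumArrowEquivProdArrow]
  simp only [h1]
  have h2 : ∀ x : Fin m → ZMod 2, ∑ y, chi (dotL x y) = if x = 0 then (2:ℤ) ^ m else 0 := by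
    intro x
    split_ifs with hx
    · subst hx
      simp [dotL_apply]
    · exact sum_chi_linear _ (dotL_ne_zero x hx)
  simp only [h2]
  simp

/-- The rearrangement of coordinates. -/
def idx (k : ℕ) : (Fin k ⊕ Fin k) ⊕ Fin 2 ≃ Fin (k + 1) ⊕ Fin (k + 1) where
  toFun
    | .inl (.inl i) => .inl i.succ
    | .inl (.inr i) => .inr i.succ
    | .inr i => if i = 0 then .inl 0 else .inr 0
  invFun
    | .inl i => Fin.cases (.inr 0) (fun j => .inl (.inl j)) i
    | .inr i => Fin.cases (.inr 1) (fun j => .inl (.inr j)) i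
  left_inv := by
    rintro ((i | i) | i)
    · simp
    · simp
    · fin_cases i <;> simp
  right_inv := by
    rintro (i | i)
    · refine Fin.cases ?_ (fun j => ?_) i <;> simp
    · refine Fin.cases ?_ (fun j => ?_) i <;> simp

/-- The coordinate rearrangement as a linear equivalence. -/
noncomputable def iota (k : ℕ) : Vm (k + 1) ≃ₗ[ZMod 2] ((Fin k ⊕ Fin k) ⊕ Fin 2 → ZMod 2) :=
  LinearEquiv.funCongrLeft (ZMod 2) (ZMod 2) (idx k)

theorem iota_apply (k : ℕ) (v : Vm (k + 1)) (i) : iota k v i = v (idx k i) := rfl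

/-- The vector `e₀ + f₀`. -/
def w0 (k : ℕ) : Vm (k + 1) := Sum.elim (fun i => if i = 0 then 1 else 0) (fun i => if i = 0 then 1 else 0)

theorem plus_w0 (k : ℕ) : Cfsg.quadFormPlus (k + 1) (ZMod 2) (w0 k) = 1 := by
  simp [Cfsg.quadFormPlus, w0, Fin.sum_univ_succ, Fin.succ_ne_zero]

theorem minus_iota (k : ℕ) (v : Vm (k + 1)) :
    Cfsg.quadFormMinus k (ZMod 2) 1 1 (iota k v) = Cfsg.quadFormPlus (k + 1) (ZMod 2) v + fm (k + 1) v (w0 k) := by
  have hsq : ∀ a : ZMod 2, a ^ 2 = a := fun a => by rw [pow_two, zmod2_sq]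
  simp only [Cfsg.quadFormMinus, iota_apply, Cfsg.quadFormPlus, fm, polarPlus_apply, Fin.sum_univ_succ, w0, hsq]
  simp [idx, Fin.succ_ne_zero]
  ring

theorem gauss_minus (k : ℕ) : gauss (Cfsg.quadFormMinus k (ZMod 2) 1 1) = - 2 ^ (k + 1) := by
  have h1 := gauss_comp (iota k).toEquiv (Cfsg.quadFormMinus k (ZMod 2) 1 1)
  have h2 : (fun v => Cfsg.quadFormMinus k (ZMod 2) 1 1 ((iota k).toEquiv v)) = fun v => Cfsg.quadFormPlus (k + 1) (ZMod 2) v + fm (k + 1) v (w0 k) :=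
    funext fun v => minus_iota k v
  rw [h2, gauss_translate (polarizes_plus (k + 1)), plus_w0, chi_one, gauss_plus] at h1
  rw [← h1]
  ring

end Cfsg.Agent.Lib.F2Quad.Plus
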