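import Cfsg.Agent.Lib.F2Quad.Plus

/-!
# Types of quadratic functions polarizing to the standard symplectic form over `ZMod 2`
-/

set_option autoImplicit false
set_option linter.unusedSectionVars false

namespace Cfsg.Agent.Lib.F2Quad.Types

open Cfsg.Agent.Lib.F2Quad.Basic Cfsg.Agent.Lib.F2Quad.Plus Cfsg.Agent.Lib.QuadFn.PlusForm Cfsg.Agent.Lib.QuadFn.MaxSingular

theorem fm_symm (m : ℕ) (u v : Vm m) : fm m u v = fm m v u := (qspace (ZMod 2) m).symm u v

/-- Every quadratic function polarizing to `fm` is `Q₀ + fm(·, w)`. -/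
theorem exists_w {m : ℕ} {q : Vm m → ZMod 2} (hq : Polarizes q (fm m)) :
    ∃ w, ∀ v, q v = Cfsg.quadFormPlus m (ZMod 2) v + fm m v w := by
  let L : Vm m →+ ZMod 2 :=
    { toFun := fun v => q v + Cfsg.quadFormPlus m (ZMod 2) v
      map_zero' := by
        rw [hq.map_zero, (polarizes_plus m).map_zero, add_zero]
      map_add' := fun u v => by
        rw [hq.add, (polarizes_plus m).add]
        have := zmod2_add_self (fm m u v)
        linear_combination this }
  let L' : Vm m →ₗ[ZMod 2] ZMod 2 := L.toZModLinearMap 2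
  refine ⟨LinearMap.BilinForm.toDual (fm m) (fm_nd m) |>.symm L', fun v => ?_⟩
  have h1 : fm m ((LinearMap.BilinForm.toDual (fm m) (fm_nd m)).symm L') v = L' v := by
    rw [← LinearMap.BilinForm.toDual_def (fm_nd m), LinearEquiv.apply_symm_apply]
  rw [fm_symm, h1]
  show q v = _ + (q v + _)
  have := zmod2_add_self (Cfsg.quadFormPlus m (ZMod 2) v)
  linear_combination -this

theorem w_unique {m : ℕ} {w w' : Vm m} (h : ∀ v, fm m v w = fm m v w') : w = w' := by
  have : w - w' = 0 := (fm_nd m).2 _ (fun v => by rw [map_sub, h v, sub_self])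
  exact sub_eq_zero.mp this

theorem translate_polarizes {m : ℕ} (w : Vm m) :
    Polarizes (fun v => Cfsg.quadFormPlus m (ZMod 2) v + fm m v w) (fm m) :=
  ⟨fun u v => by
    simp only [(polarizes_plus m).add u v, map_add, LinearMap.add_apply]
    ring⟩

/-- `Q₀ + f(·,w)` is of minus type iff `Q₀ w = 1`. -/
theorem minus_iff (k : ℕ) (w : Vm (k + 1)) :
    (∃ g : Vm (k + 1) ≃ₗ[ZMod 2] ((Fin k ⊕ Fin k) ⊕ Fin 2 → ZMod 2),
        ∀ v, Cfsg.quadFormPlus (k + 1) (ZMod 2) v + fm (k + 1) v w = Cfsg.quadFormMinus k (ZMod 2) 1 1 (g v)) ↔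
      Cfsg.quadFormPlus (k + 1) (ZMod 2) w = 1 := by
  have hP := translate_polarizes (w0 k)
  have h1 := translate_isometric_iff hP (fm_nd _) (fm_self _) (w + w0 k)
  have hval : Cfsg.quadFormPlus (k + 1) (ZMod 2) (w + w0 k) + fm (k + 1) (w + w0 k) (w0 k)
      = Cfsg.quadFormPlus (k + 1) (ZMod 2) w + 1 := by
    rw [(polarizes_plus _).add, plus_w0, map_add, LinearMap.add_apply, fm_self]
    have := zmod2_add_self (fm (k + 1) w (w0 k))
    linear_combination this
  have hsum : ∀ v, Cfsg.quadFormPlus (k + 1) (ZMod 2) v + fm (k + 1) v (w0 k) + fm (k + 1) v (w + w0 k)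
      = Cfsg.quadFormPlus (k + 1) (ZMod 2) v + fm (k + 1) v w := by
    intro v
    rw [map_add]
    have := zmod2_add_self (fm (k + 1) v (w0 k))
    linear_combination this
  simp only [hsum, hval] at h1
  constructor
  · rintro ⟨g, hg⟩
    have h2 := h1.mp ⟨g.trans (iota k).symm, fun v => by
      rw [hg v, LinearEquiv.trans_apply, ← minus_iota, LinearEquiv.apply_symm_apply]⟩
    rcases zmod2_cases (Cfsg.quadFormPlus (k + 1) (ZMod 2) w) with h3 | h3
    · rw [h3] at h2
      exact absurd h2 (by decide)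
    · exact h3
  · intro h
    obtain ⟨g, hg⟩ := h1.mpr (by rw [h]; decide)
    refine ⟨g.trans (iota k), fun v => ?_⟩
    rw [hg v, LinearEquiv.trans_apply, minus_iota]

/-- `Q₀ + f(·,w)` is of plus type iff `Q₀ w = 0`. -/
theorem plus_iff (m : ℕ) (w : Vm m) :
    (∃ g : Vm m ≃ₗ[ZMod 2] Vm m,
        ∀ v, Cfsg.quadFormPlus m (ZMod 2) v + fm m v w = Cfsg.quadFormPlus m (ZMod 2) (g v)) ↔
      Cfsg.quadFormPlus m (ZMod 2) w = 0 :=
  translate_isometric_iff (polarizes_plus m) (fm_nd m) (fm_self m) w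

theorem card_V (m : ℕ) : Nat.card (Vm m) = 2 ^ (2 * m) := by
  rw [Nat.card_eq_fintype_card, Fintype.card_fun, Fintype.card_sum, Fintype.card_fin, ZMod.card, two_mul]

theorem card_split (m : ℕ) :
    Nat.card {w : Vm m // Cfsg.quadFormPlus m (ZMod 2) w = 0} + Nat.card {w : Vm m // Cfsg.quadFormPlus m (ZMod 2) w = 1} = 2 ^ (2 * m) ∧
    (Nat.card {w : Vm m // Cfsg.quadFormPlus m (ZMod 2) w = 0} : ℤ) - Nat.card {w : Vm m // Cfsg.quadFormPlus m (ZMod 2) w = 1} = 2 ^ m := by
  classical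
  have h1 := card_zero_add_card_one (Cfsg.quadFormPlus m (ZMod 2))
  rw [gauss_plus] at h1
  have ha : Nat.card {w : Vm m // Cfsg.quadFormPlus m (ZMod 2) w = 0} = (Finset.univ.filter (fun v => Cfsg.quadFormPlus m (ZMod 2) v = 0)).card := by
    rw [Nat.card_eq_fintype_card, Fintype.card_subtype]
  have hb : Nat.card {w : Vm m // Cfsg.quadFormPlus m (ZMod 2) w = 1} = (Finset.univ.filter (fun v => Cfsg.quadFormPlus m (ZMod 2) v ≠ 0)).card := by
    rw [Nat.card_eq_fintype_card, Fintype.card_subtype]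
    congr 1
    ext v
    simp only [Finset.mem_filter, Finset.mem_univ, true_and]
    rcases zmod2_cases (Cfsg.quadFormPlus m (ZMod 2) v) with h | h <;> simp [h]
  rw [ha, hb]
  refine ⟨?_, h1⟩
  have h2 := Finset.card_filter_add_card_filter_not (s := (Finset.univ : Finset (Vm m))) (fun v => Cfsg.quadFormPlus m (ZMod 2) v = 0)
  rw [h2, Finset.card_univ, ← Nat.card_eq_fintype_card, card_V]

theorem card_zero (k : ℕ) :
    Nat.card {w : Vm (k + 1) // Cfsg.quadFormPlus (k + 1) (ZMod 2) w = 0} = 2 ^ (2 * k + 1) + 2 ^ k := by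
  obtain ⟨h1, h2⟩ := card_split (k + 1)
  have h3 : (2:ℕ) ^ (2 * (k + 1)) = 2 * 2 ^ (2 * k + 1) := by ring
  have h4 : (2:ℤ) ^ (k + 1) = 2 * 2 ^ k := by ring
  rw [h3] at h1
  rw [h4] at h2
  zify at h1 ⊢
  linarith

theorem card_one (k : ℕ) :
    Nat.card {w : Vm (k + 1) // Cfsg.quadFormPlus (k + 1) (ZMod 2) w = 1} = 2 ^ (2 * k + 1) - 2 ^ k := by
  obtain ⟨h1, h2⟩ := card_split (k + 1)
  have h3 : (2:ℕ) ^ (2 * (k + 1)) = 2 * 2 ^ (2 * k + 1) := by ring
  have h4 : (2:ℤ) ^ (k + 1) = 2 * 2 ^ k := by ring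
  rw [h3] at h1
  rw [h4] at h2
  have h5 := card_zero k
  omega

/-- A Lagrangian totally singular subspace forces a positive Gauss sum. -/
theorem gauss_pos_of_lagrangian {V : Type*} [Fintype V] [AddCommGroup V] [Module (ZMod 2) V]
    {q : V → ZMod 2} {f : LinearMap.BilinForm (ZMod 2) V} (hP : Polarizes q f)
    (U : Submodule (ZMod 2) V) (hU : ∀ u ∈ U, q u = 0) (hperp : ∀ v, (∀ u ∈ U, f v u = 0) → v ∈ U) :
    0 < gauss q := by
  classical
  have key : ∀ u : U, gauss q = ∑ v, chi (q v) * chi (f v u) := by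
    intro u
    unfold gauss
    rw [← Equiv.sum_comp (Equiv.addRight (u : V)) (fun v => chi (q v))]
    refine Finset.sum_congr rfl fun v _ => ?_
    simp only [Equiv.coe_addRight]
    rw [hP.add, chi_add, chi_add, hU _ u.2, chi_zero, mul_one]
  have h1 : (Fintype.card U : ℤ) * gauss q = ∑ v, chi (q v) * ∑ u : U, chi (f v u) := by
    calc (Fintype.card U : ℤ) * gauss q = ∑ u : U, gauss q := by simp
      _ = ∑ u : U, ∑ v, chi (q v) * chi (f v u) := Finset.sum_congr rfl fun u _ => key u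
      _ = ∑ v, ∑ u : U, chi (q v) * chi (f v u) := Finset.sum_comm
      _ = _ := Finset.sum_congr rfl fun v _ => by rw [Finset.mul_sum]
  have h2 : ∀ v, chi (q v) * ∑ u : U, chi (f v u) = if v ∈ U then (Fintype.card U : ℤ) else 0 := by
    intro v
    split_ifs with hv
    · have h3 : ∀ u : U, f v u = 0 := fun u => by
        have := hP.add v u
        rw [hU v hv, hU u u.2, hU _ (U.add_mem hv u.2)] at this
        simpa using this.symm
      simp [h3, hU v hv]
    · obtain ⟨u, hu, hne⟩ : ∃ u ∈ U, f v u ≠ 0 := by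
        by_contra hcon
        push Not at hcon
        exact hv (hperp v hcon)
      have : ∑ u : U, chi (f v u) = 0 := by
        apply sum_chi_linear ((f v).comp U.subtype)
        intro h0
        apply hne
        have := congrArg (fun L => L ⟨u, hu⟩) h0
        simpa using this
      rw [this, mul_zero]
  simp only [h2] at h1
  have hc : (0:ℤ) < Fintype.card U := by exact_mod_cast Fintype.card_pos
  have h3 : (∑ x : V, if x ∈ U then (Fintype.card U : ℤ) else 0) = (Fintype.card U : ℤ) * (Finset.univ.filter (fun x => x ∈ U)).card := by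
    rw [Finset.sum_ite, Finset.sum_const, Finset.sum_const_zero, add_zero]
    simp [mul_comm]
  rw [h3] at h1
  have h4 := mul_left_cancel₀ hc.ne' h1
  rw [h4]
  have h5 : 0 < (Finset.univ.filter (fun x => x ∈ U)).card :=
    Finset.card_pos.mpr ⟨0, by simp⟩
  exact_mod_cast h5

end Cfsg.Agent.Lib.F2Quad.Types
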